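import Cfsg.Agent.H780.P9.Iface

/-!
# S5925, box H: the WP lemmas of `plBeta1`, `plBeta2`, `plBeta10`, `plBeta20`
-/

set_option autoImplicit false
set_option linter.style.longLine false

namespace Cfsg.Agent.H51.P9
open Matrix Cfsg.Agent.H879.E83 Cfsg.Agent.H780.P9

section
variable {F : Type*} [Field F] {g : F} {q p : Mt F} {m : F} {t : Fin 10 → F}

/-- the lanes of the continuations in terms of row 3, 4 entries -/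
theorem lc_eq (c : Ctx g q p m t) : LC p =
    [p 0 2, p 0 0, p 2 2, p 1 4 ^ 9 * p 0 3 + p 1 3 ^ 9 * p 0 4, p 1 4 ^ 9 * p 2 3 + p 1 3 ^ 9 * p 2 4,
      p 0 3 * p 0 4 ^ 9 + (p 0 3 * p 0 4 ^ 9) ^ 9, p 2 3 * p 2 4 ^ 9 + (p 2 3 * p 2 4 ^ 9) ^ 9] := by
  have H := c.four.herm
  have h1 := herm_exp' H 1 0
  have h2 := herm_exp' H 1 2
  have h3 := herm_exp' H 0 0
  have h4 := herm_exp' H 2 2
  rw [if_neg (by decide)] at h1 h2 h3 h4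
  rw [c.sym 1 0, c.sym 2 0, c.sym 3 0, c.sym 4 0] at h1 h3
  rw [c.sym 1 0, c.sym 3 2, c.sym 4 2] at h2
  rw [c.sym 3 2, c.sym 4 2, c.sym 2 0, c.sym 2 1] at h4
  have a1 : p 0 0 * p 1 2 ^ 9 + p 0 1 * p 1 1 ^ 9 + p 0 2 * p 0 1 ^ 9 = p 1 4 ^ 9 * p 0 3 + p 1 3 ^ 9 * p 0 4 := by
    linear_combination h1
  have a2 : p 0 2 * p 1 2 ^ 9 + p 1 2 * p 1 1 ^ 9 + p 2 2 * p 0 1 ^ 9 = p 1 4 ^ 9 * p 2 3 + p 1 3 ^ 9 * p 2 4 := by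
    linear_combination h2
  have a3 : p 0 1 * p 0 1 ^ 9 + (p 0 0 * p 0 2 ^ 9 + (p 0 0 * p 0 2 ^ 9) ^ 9)
      = p 0 3 * p 0 4 ^ 9 + (p 0 3 * p 0 4 ^ 9) ^ 9 := by
    have e2 := c.p81 0 2
    have e4 := c.p81 0 4
    linear_combination h3 + p 0 0 ^ 9 * e2 - p 0 3 ^ 9 * e4
  have a4 : p 1 2 * p 1 2 ^ 9 + (p 0 2 * p 2 2 ^ 9 + (p 0 2 * p 2 2 ^ 9) ^ 9)
      = p 2 3 * p 2 4 ^ 9 + (p 2 3 * p 2 4 ^ 9) ^ 9 := by
    have e2 := c.p81 2 2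
    have e4 := c.p81 2 4
    linear_combination h4 + p 0 2 ^ 9 * e2 - p 2 3 ^ 9 * e4
  rw [LC, a1, a2, a3, a4]

/-- the choice of a trit -/
theorem wp_trit {G : Prop} {ks ls : List F} {pl : Plan} {x : F} (hx : x = 0 ∨ x = 1 ∨ x = -1) (h : WP g G pl (ks ++ [x]) ls) :
    WP g G (.alt [.zero, .pw 0, .neg (.pw 0)] pl) ks ls := by
  rcases hx with rfl | rfl | rfl
  · exact WP_alt .zero (by simp) rfl h
  · exact WP_alt (.pw 0) (by simp) (pow_zero g) h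
  · exact WP_alt (.neg (.pw 0)) (by simp) (congrArg Neg.neg (pow_zero g)) h

/-- the scalars `t9, Q03, Q04, bar Q03, bar Q04` -/
theorem wp_t9 {G : Prop} {ls : List F} {pl : Plan} (c : Ctx g q p m t) (h : WP g G pl (K38 g p t) ls) :
    WP g G (.alt [.zero, .pw 0, .neg (.pw 0)]
      (.kf (.neg (.add (.add (.k 12) (.mul (.pw 20) (.k 29))) (.k 33)))
      (.kf (.neg (.add (.add (.k 13) (.mul (.pw 60) (.k 29))) (.neg (.k 33))))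
      (.kf (.fr (.fr (.k 34)))
      (.kf (.fr (.fr (.k 35))) pl))))) (K33 g p t) ls := by
  have c3 : ∀ x : F, (x ^ 3) ^ 3 = x ^ 9 := fun x => by ring
  refine wp_trit (c.tr 8) (WP_kf (x := QQ p 0 3) ?_ (WP_kf (x := QQ p 0 4) ?_ (WP_kf (x := QQ p 0 3 ^ 9) ?_ (WP_kf (x := QQ p 0 4 ^ 9) ?_ ?_))))
  · exact c.Q03.symm
  · exact c.Q04.symm
  · exact c3 _
  · exact c3 _
  · exact h

/-- `t9` with the two dummy zeros -/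
theorem wp_t9z {G : Prop} {ls : List F} {pl : Plan} (c : Ctx g q p m t) (h : WP g G pl (K40 g p t 0 0) ls) :
    WP g G (.alt [.zero, .pw 0, .neg (.pw 0)]
      (.kf (.neg (.add (.add (.k 12) (.mul (.pw 20) (.k 29))) (.k 33)))
      (.kf (.neg (.add (.add (.k 13) (.mul (.pw 60) (.k 29))) (.neg (.k 33))))
      (.kf (.fr (.fr (.k 34)))
      (.kf (.fr (.fr (.k 35))) (.kf .zero (.kf .zero pl))))))) (K33 g p t) ls :=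
  wp_t9 c (WP_kf (x := 0) rfl (WP_kf (x := 0) rfl h))

/-- the common part of `plBeta1`, `plBeta10` (after the scalars) -/
theorem wp_b1 {G : Prop} {ks : List F} {pl : Plan} (c : Ctx g q p m t) (h13 : p 1 3 = 1) (h14 : p 1 4 = 0)
    (k34 : ks.getD 34 0 = QQ p 0 3) (k35 : ks.getD 35 0 = QQ p 0 4) (h : WP g G pl ks (LS2 p)) :
    WP g G (.ex (.df (.mul (.v 7) (.fr (.fr (.v 3))))
      (.fl [(.sub (.mul (.v 7) (.fr (.fr (.v 4)))) (.k 34)), (.sub (.v 5) (.add (.v 9) (.fr (.fr (.v 9)))))] [0, 1, 2, 3, 4, 5, 6, 7]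
      (.ex (.df (.mul (.v 8) (.fr (.fr (.v 4))))
      (.fl [(.sub (.mul (.v 3) (.fr (.fr (.v 8)))) (.k 35)), (.sub (.v 6) (.add (.v 10) (.fr (.fr (.v 10)))))] [1, 0, 2, 7, 4, 3, 8]
      pl)))))) ks (LC p) := by
  have c3 : ∀ x : F, (x ^ 3) ^ 3 = x ^ 9 := fun x => by ring
  have e0 : LC p = [p 0 2, p 0 0, p 2 2, p 0 4, p 2 4,
      p 0 3 * p 0 4 ^ 9 + (p 0 3 * p 0 4 ^ 9) ^ 9, p 2 3 * p 2 4 ^ 9 + (p 2 3 * p 2 4 ^ 9) ^ 9] := by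
    rw [lc_eq c, h13, h14]
    simp only [one_pow, one_mul, ne_eq, OfNat.ofNat_ne_zero, not_false_eq_true, zero_pow, zero_mul, zero_add]
  rw [e0]
  refine WP_ex (p 0 3) (c.p81 0 3) (WP_df (x := p 0 3 * p 0 4 ^ 9) ?_ (WP_fl
    (ls' := [p 0 2, p 0 0, p 2 2, p 0 4, p 2 4, p 0 3 * p 0 4 ^ 9 + (p 0 3 * p 0 4 ^ 9) ^ 9,
      p 2 3 * p 2 4 ^ 9 + (p 2 3 * p 2 4 ^ 9) ^ 9, p 0 3]) ?_ rfl ?_))
  · exact congrArg (p 0 3 * ·) (c3 _)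
  · intro e he
    simp only [List.mem_cons, List.not_mem_nil, or_false] at he
    rcases he with rfl | rfl
    · show p 0 3 * (p 2 4 ^ 3) ^ 3 - ks.getD 34 0 = 0
      rw [k34]
      show p 0 3 * (p 2 4 ^ 3) ^ 3 - p 0 3 * p 2 4 ^ 9 = 0
      ring
    · show p 0 3 * p 0 4 ^ 9 + (p 0 3 * p 0 4 ^ 9) ^ 9 - (p 0 3 * p 0 4 ^ 9 + ((p 0 3 * p 0 4 ^ 9) ^ 3) ^ 3) = 0
      ring
  · refine WP_ex (p 2 3) (c.p81 2 3) (WP_df (x := p 2 3 * p 2 4 ^ 9) ?_ (WP_fl (ls' := LS2 p) ?_ rfl h))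
    · exact congrArg (p 2 3 * ·) (c3 _)
    · intro e he
      simp only [List.mem_cons, List.not_mem_nil, or_false] at he
      rcases he with rfl | rfl
      · show p 0 4 * (p 2 3 ^ 3) ^ 3 - ks.getD 35 0 = 0
        rw [k35]
        show p 0 4 * (p 2 3 ^ 3) ^ 3 - p 0 4 * p 2 3 ^ 9 = 0
        ring
      · show p 2 3 * p 2 4 ^ 9 + (p 2 3 * p 2 4 ^ 9) ^ 9 - (p 2 3 * p 2 4 ^ 9 + ((p 2 3 * p 2 4 ^ 9) ^ 3) ^ 3) = 0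
        ring

/-- the common part of `plBeta2`, `plBeta20` (after the scalars) -/
theorem wp_b2 {G : Prop} {ks : List F} {pl : Plan} (c : Ctx g q p m t) (h13 : p 1 3 = 0) (h14 : p 1 4 = 1)
    (k34 : ks.getD 34 0 = QQ p 0 3) (k35 : ks.getD 35 0 = QQ p 0 4) (h : WP g G pl ks (LS2 p)) :
    WP g G (.ex (.df (.mul (.v 3) (.fr (.fr (.v 7))))
      (.fl [(.sub (.mul (.v 7) (.fr (.fr (.v 4)))) (.k 35)), (.sub (.v 5) (.add (.v 9) (.fr (.fr (.v 9)))))] [0, 1, 2, 3, 4, 5, 6, 7]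
      (.ex (.df (.mul (.v 4) (.fr (.fr (.v 8))))
      (.fl [(.sub (.mul (.v 3) (.fr (.fr (.v 8)))) (.k 34)), (.sub (.v 6) (.add (.v 10) (.fr (.fr (.v 10)))))] [1, 0, 2, 3, 8, 7, 4]
      pl)))))) ks (LC p) := by
  have c3 : ∀ x : F, (x ^ 3) ^ 3 = x ^ 9 := fun x => by ring
  have e0 : LC p = [p 0 2, p 0 0, p 2 2, p 0 3, p 2 3,
      p 0 3 * p 0 4 ^ 9 + (p 0 3 * p 0 4 ^ 9) ^ 9, p 2 3 * p 2 4 ^ 9 + (p 2 3 * p 2 4 ^ 9) ^ 9] := by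
    rw [lc_eq c, h13, h14]
    simp only [one_pow, one_mul, ne_eq, OfNat.ofNat_ne_zero, not_false_eq_true, zero_pow, zero_mul, add_zero]
  rw [e0]
  refine WP_ex (p 0 4) (c.p81 0 4) (WP_df (x := p 0 3 * p 0 4 ^ 9) ?_ (WP_fl
    (ls' := [p 0 2, p 0 0, p 2 2, p 0 3, p 2 3, p 0 3 * p 0 4 ^ 9 + (p 0 3 * p 0 4 ^ 9) ^ 9,
      p 2 3 * p 2 4 ^ 9 + (p 2 3 * p 2 4 ^ 9) ^ 9, p 0 4]) ?_ rfl ?_))
  · exact congrArg (p 0 3 * ·) (c3 _)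
  · intro e he
    simp only [List.mem_cons, List.not_mem_nil, or_false] at he
    rcases he with rfl | rfl
    · show p 0 4 * (p 2 3 ^ 3) ^ 3 - ks.getD 35 0 = 0
      rw [k35]
      show p 0 4 * (p 2 3 ^ 3) ^ 3 - p 0 4 * p 2 3 ^ 9 = 0
      ring
    · show p 0 3 * p 0 4 ^ 9 + (p 0 3 * p 0 4 ^ 9) ^ 9 - (p 0 3 * p 0 4 ^ 9 + ((p 0 3 * p 0 4 ^ 9) ^ 3) ^ 3) = 0
      ring
  · refine WP_ex (p 2 4) (c.p81 2 4) (WP_df (x := p 2 3 * p 2 4 ^ 9) ?_ (WP_fl (ls' := LS2 p) ?_ rfl h))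
    · exact congrArg (p 2 3 * ·) (c3 _)
    · intro e he
      simp only [List.mem_cons, List.not_mem_nil, or_false] at he
      rcases he with rfl | rfl
      · show p 0 3 * (p 2 4 ^ 3) ^ 3 - ks.getD 34 0 = 0
        rw [k34]
        show p 0 3 * (p 2 4 ^ 3) ^ 3 - p 0 3 * p 2 4 ^ 9 = 0
        ring
      · show p 2 3 * p 2 4 ^ 9 + (p 2 3 * p 2 4 ^ 9) ^ 9 - (p 2 3 * p 2 4 ^ 9 + ((p 2 3 * p 2 4 ^ 9) ^ 3) ^ 3) = 0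
        ring

theorem wp_Beta1 (c : Ctx g q p m t) (h13 : p 1 3 = 1) (h14 : p 1 4 = 0) (h : WS2 g q p t) : WC g q p t plBeta1 :=
  wp_t9z c (wp_b1 c h13 h14 rfl rfl h)

theorem wp_Beta2 (c : Ctx g q p m t) (h13 : p 1 3 = 0) (h14 : p 1 4 = 1) (h : WS2 g q p t) : WC g q p t plBeta2 :=
  wp_t9z c (wp_b2 c h13 h14 rfl rfl h)

theorem wp_Beta10 (c : Ctx g q p m t) (h13 : p 1 3 = 1) (h14 : p 1 4 = 0) (h : WS2x g q p t plS2i) : WC g q p t plBeta10 :=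
  wp_t9 c (wp_b1 c h13 h14 rfl rfl h)

theorem wp_Beta20 (c : Ctx g q p m t) (h13 : p 1 3 = 0) (h14 : p 1 4 = 1) (h : WS2x g q p t plS2j) : WC g q p t plBeta20 :=
  wp_t9 c (wp_b2 c h13 h14 rfl rfl h)

end
end Cfsg.Agent.H51.P9
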